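import Cfsg.Agent.On3.Loc

/-! Local structure, I: the four-groups `V x`. -/

set_option autoImplicit false
set_option linter.unusedSectionVars false
set_option linter.unusedVariables false

namespace Cfsg.Agent.On3

open Subgroup Cfsg Cfsg.Agent.PLocal Cfsg.Agent.PLocal.Amb
open scoped commutatorElement

variable {G : Type*} [Group G]

theorem V_conj_le (g x : G) : cj(g, V x) ≤ V (g * x * g⁻¹) := by
  rw [cj_le_iff]
  refine (closure_le _).2 fun v hv => ?_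
  show v ∈ cj(g⁻¹, _)
  rw [mem_cj, inv_inv]
  refine subset_closure ⟨?_, ?_⟩
  · show _ * _ = _ * _
    calc g * v * g⁻¹ * (g * x * g⁻¹) = g * (v * x) * g⁻¹ := by group
      _ = _ := by rw [hv.1.eq]; group
  · calc g * v * g⁻¹ * (g * v * g⁻¹) = g * (v * v) * g⁻¹ := by group
      _ = 1 := by rw [hv.2]; group

theorem V_conj (g x : G) : V (g * x * g⁻¹) = cj(g, V x) := by
  refine le_antisymm ?_ (V_conj_le g x)
  have := V_conj_le g⁻¹ (g * x * g⁻¹)
  rw [show g⁻¹ * (g * x * g⁻¹) * g⁻¹⁻¹ = x by group] at this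
  exact le_cj_iff.2 this

theorem V_inv (x : G) : V x⁻¹ = V x := by
  unfold V
  simp only [Commute.inv_right_iff]

theorem R_conj (g x : G) : R (g * x * g⁻¹) = cj(g, R x) := by
  unfold R
  rw [V_conj, normalizer_cj, pCoreOf_cj]

theorem R_two (x : G) : IsPGroup 2 (R x) := isPGroup_pCoreOf _ _
theorem R_le_norm (x : G) : R x ≤ 𝐍[V x] := pCoreOf_le _ _
theorem norm_R (x : G) : 𝐍[V x] ≤ 𝐍[R x] := le_normalizer_pCoreOf _ _
theorem Adj.symm {x y : G} (h : Adj x y) : Adj y x := ⟨h.r, h.l, le_centralizer_iff.1 h.le⟩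

theorem Adj.conj {x y : G} (h : Adj x y) (g : G) : Adj (g * x * g⁻¹) (g * y * g⁻¹) := by
  refine ⟨?_, ?_, ?_⟩ <;> simp only [V_conj]
  · exact fun e => h.l (cj_eq_bot.1 e)
  · exact fun e => h.r (cj_eq_bot.1 e)
  · rw [centralizer_cj]; exact cj_mono g h.le

theorem Adj.congr {x y x' y' : G} (h : Adj x y) (hx : V x = V x') (hy : V y = V y') : Adj x' y' :=
  ⟨hx ▸ h.l, hy ▸ h.r, hx ▸ hy ▸ h.le⟩

theorem Adj.comm {x y u w : G} (h : Adj x y) (hu : u ∈ V x) (hw : w ∈ V y) : Commute u w :=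
  (mem_centralizer_iff.1 (h.le hu) w hw).symm

theorem eq_or_of_cube {x y : G} (hx : x ^ 3 = 1) (hy : y ∈ zpowers x) :
    y = 1 ∨ y = x ∨ y = x⁻¹ := by
  obtain ⟨k, rfl⟩ := mem_zpowers_iff.1 hy
  have h3 : x ^ (3 : ℤ) = 1 := by exact_mod_cast hx
  have e : x ^ k = x ^ (k % 3) := by
    conv_lhs => rw [← Int.mul_ediv_add_emod k 3, zpow_add, zpow_mul, h3, one_zpow, one_mul]
  have : k % 3 = 0 ∨ k % 3 = 1 ∨ k % 3 = 2 := by omega
  rcases this with k | k | k <;> rw [e, k]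
  · simp
  · simp
  · refine Or.inr (Or.inr (eq_inv_of_mul_eq_one_left ?_))
    rw [← hx, pow_succ]; norm_cast

theorem inv_eq_sq {x : G} (hx : x ^ 3 = 1) : x⁻¹ = x * x :=
  inv_eq_of_mul_eq_one_right (by rw [← hx, pow_three])

theorem comm_of_sq' {u v : G} (hu : u * u = 1) (hv : v * v = 1) (h : u * v * (u * v) = 1) :
    Commute u v := by
  show u * v = v * u
  rw [← inv_eq_of_mul_eq_one_right h, mul_inv_rev, inv_eq_of_mul_eq_one_right hu,
    inv_eq_of_mul_eq_one_right hv]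

theorem two_of_sq {K : Subgroup G} (h : ∀ k ∈ K, k * k = 1) : IsPGroup 2 K :=
  isPGroup_iff.2 fun k hk => ⟨1, by rw [pow_one, sq, h k hk]⟩

variable [Finite G]

namespace H3

variable (h : H3 G) {x : G} (hx : orderOf x = 3)
include h hx

theorem mem_V {v : G} : v ∈ V x ↔ Commute v x ∧ v * v = 1 := by
  refine ⟨fun hv => ?_, fun hv => subset_closure hv⟩
  induction hv using closure_induction with
  | mem v hv => exact hv
  | one => exact ⟨Commute.one_left _, mul_one _⟩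
  | mul u v _ _ hu hv =>
    exact ⟨hu.1.mul_left hv.1, congrArg Subtype.val ((h.loc hx).mul
      ⟨u, mem_centralizer_singleton_iff.2 hu.1⟩ ⟨v, mem_centralizer_singleton_iff.2 hv.1⟩
      (Subtype.ext hu.2) (Subtype.ext hv.2))⟩
  | inv u _ hu => exact ⟨hu.1.inv_left, by rw [← mul_inv_rev, hu.2, inv_one]⟩

theorem card_V_eq : Nat.card (V x) = Nat.card {v : centralizer ({x} : Set G) // v * v = 1} :=
  Nat.card_congr
    { toFun := fun v => ⟨⟨v, mem_centralizer_singleton_iff.2 ((h.mem_V hx).1 v.2).1⟩,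
        Subtype.ext ((h.mem_V hx).1 v.2).2⟩
      invFun := fun v => ⟨v.1, (h.mem_V hx).2 ⟨mem_centralizer_singleton_iff.1 v.1.2,
        congrArg Subtype.val v.2⟩⟩
      left_inv := fun _ => rfl
      right_inv := fun _ => rfl }

theorem card_V (h1 : V x ≠ ⊥) : Nat.card (V x) = 4 := by
  rcases (h.loc hx).card with k | k
  · exact absurd (card_eq_one.1 ((h.card_V_eq hx).trans k.2)) h1
  · exact (h.card_V_eq hx).trans k.2

theorem card_cent : Nat.card (centralizer ({x} : Set G)) = 9 * Nat.card (V x) := by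
  rw [h.card_V_eq hx]
  rcases (h.loc hx).card with k | k <;> rw [k.1, k.2]

theorem pow_six {c : G} (hc : Commute c x) : c ^ 6 = 1 :=
  congrArg Subtype.val ((h.loc hx).six ⟨c, mem_centralizer_singleton_iff.2 hc⟩)

/-- no elements of order `4` in `C(x)` -/
theorem mem_V_of_pow {c : G} (hc : Commute c x) {k : ℕ} (hk : c ^ 2 ^ k = 1) : c ∈ V x := by
  refine (h.mem_V hx).2 ⟨hc, ?_⟩
  have h1 : orderOf c ∣ Nat.gcd 6 (2 ^ k) :=
    Nat.dvd_gcd (orderOf_dvd_of_pow_eq_one (h.pow_six hx hc)) (orderOf_dvd_of_pow_eq_one hk)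
  have h2 : Nat.gcd 6 (2 ^ k) ∣ 2 := by
    have : Nat.Coprime (Nat.gcd 6 (2 ^ k)) 3 :=
      Nat.Coprime.coprime_dvd_left (Nat.gcd_dvd_right _ _) (Nat.Coprime.pow_left k (by norm_num))
    exact this.dvd_of_dvd_mul_right (Nat.gcd_dvd_left 6 _)
  rw [← sq]
  exact orderOf_dvd_iff_pow_eq_one.1 (h1.trans h2)

theorem fpf {y v : G} (hy : Commute y x) (h3 : y ^ 3 = 1) (hn : y ∉ zpowers x) (hv : v ∈ V x)
    (hc : Commute v y) : v = 1 := by
  obtain ⟨h1, h2⟩ := (h.mem_V hx).1 hv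
  refine congrArg Subtype.val ((h.loc hx).fpf ⟨x, mem_centralizer_singleton_iff.2 rfl⟩
    ⟨y, mem_centralizer_singleton_iff.2 hy⟩ ⟨v, mem_centralizer_singleton_iff.2 h1⟩
    (fun e => ?_) (fun c => Subtype.ext (mem_centralizer_singleton_iff.1 c.2)) (Subtype.ext h3)
    (fun e => hn ?_) (fun e => hn ?_) (fun e => hn ?_) (Subtype.ext h2) (Subtype.ext hc))
  · rw [show x = 1 from congrArg Subtype.val e, orderOf_one] at hx
    omega
  · rw [show y = 1 from congrArg Subtype.val e]; exact one_mem _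
  · rw [show y = x from congrArg Subtype.val e]; exact mem_zpowers x
  · rw [show y = x⁻¹ from congrArg Subtype.val e]; exact inv_mem (mem_zpowers x)

theorem cube {c : G} (hc : Commute c x) {k : ℕ} (hk : c ^ 3 ^ k = 1) : c ^ 3 = 1 := by
  have h1 : orderOf c ∣ Nat.gcd 6 (3 ^ k) :=
    Nat.dvd_gcd (orderOf_dvd_of_pow_eq_one (h.pow_six hx hc)) (orderOf_dvd_of_pow_eq_one hk)
  have h2 : Nat.gcd 6 (3 ^ k) ∣ 3 := by
    have : Nat.Coprime (Nat.gcd 6 (3 ^ k)) 2 :=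
      Nat.Coprime.coprime_dvd_left (Nat.gcd_dvd_right _ _) (Nat.Coprime.pow_left k (by norm_num))
    exact this.dvd_of_dvd_mul_left (Nat.gcd_dvd_left 6 _)
  exact orderOf_dvd_iff_pow_eq_one.1 (h1.trans h2)

theorem card_syl {T : Subgroup G} (hT : IsSyl 3 T (centralizer {x})) : Nat.card T = 9 := by
  have : Fact (Nat.Prime 3) := ⟨Nat.prime_three⟩
  rw [hT.card_eq_pow]
  rcases (h.loc hx).card with k | k <;> rw [k.1]
  · rw [show 9 = 3 ^ 2 from rfl, Nat.Prime.factorization_pow Nat.prime_three]; simp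
  · rw [show 36 = 3 ^ 2 * 4 from rfl, Nat.factorization_mul (by norm_num) (by norm_num),
      Nat.Prime.factorization_pow Nat.prime_three]
    simp [Nat.factorization_eq_zero_of_not_dvd (show ¬ 3 ∣ 4 by norm_num)]

theorem exists_sy : ∃ P : Subgroup G, Sy P ∧ x ∈ P := by
  have : Fact (Nat.Prime 3) := ⟨Nat.prime_three⟩
  obtain ⟨T, hT, h1⟩ := exists_isSyl_ge (p := 3) (R := zpowers x) (L := centralizer {x})
    (isPGroup_zpowers ⟨1, by rw [pow_one, ← hx, pow_orderOf_eq_one]⟩)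
    (zpowers_le.2 (mem_centralizer_singleton_iff.2 rfl))
  refine ⟨T, ⟨h, h.card_syl hx hT, fun y hy => ?_⟩, h1 (mem_zpowers x)⟩
  obtain ⟨k, hk⟩ := isPGroup_iff.1 hT.pgrp y hy
  exact h.cube hx (mem_centralizer_singleton_iff.1 (hT.le hy)) hk

omit hx in
theorem orderOf_dvd {c : G} (hc : 3 ∣ orderOf c) : orderOf c ∣ 6 := by
  have h1 : orderOf (c ^ (orderOf c / 3)) = 3 := orderOf_pow_orderOf_div (orderOf_pos c).ne' hc
  exact orderOf_dvd_of_pow_eq_one (h.pow_six h1 (Commute.self_pow c _))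

end H3

namespace Sy

variable {P : Subgroup G} (h : Sy P) {x y z s : G}
include h

theorem ord (hx : x ∈ P) (h1 : x ≠ 1) : orderOf x = 3 :=
  haveI : Fact (Nat.Prime 3) := ⟨Nat.prime_three⟩
  orderOf_eq_prime (h.cube x hx) h1

theorem three : IsPGroup 3 P := isPGroup_iff.2 fun x hx => ⟨1, by rw [pow_one, h.cube x hx]⟩

theorem comm (hx : x ∈ P) (hy : y ∈ P) : Commute x y := by
  have : Fact (Nat.Prime 3) := ⟨Nat.prime_three⟩
  have := IsPGroup.isMulCommutative_of_card_eq_prime_sq (p := 3) (G := P) h.card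
  exact setLike_mul_comm hx hy

theorem exists_ne_one : ∃ x ∈ P, x ≠ 1 := by
  by_contra k
  push Not at k
  have := h.card
  rw [(eq_bot_iff_forall P).2 k, card_bot] at this
  omega

theorem syl : IsSyl 3 P ⊤ := by
  have : Fact (Nat.Prime 3) := ⟨Nat.prime_three⟩
  obtain ⟨T, hT, h1⟩ := exists_isSyl_ge (L := ⊤) h.three le_top
  obtain ⟨x, hx, x1⟩ := h.exists_ne_one
  have h2 := inf_centralizer_ne_bot hT.pgrp hT.pgrp le_normalizer
    (fun e => x1 (mem_bot.1 (e ▸ h1 hx)))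
  obtain ⟨⟨z, hz⟩, z1⟩ := (ne_bot_iff_exists_ne_one).1 h2
  have z1 : z ≠ 1 := fun e => z1 (Subtype.ext e)
  obtain ⟨k, hk⟩ := isPGroup_iff.1 hT.pgrp z hz.1
  have oz := haveI : Fact (Nat.Prime 3) := ⟨Nat.prime_three⟩
    orderOf_eq_prime (h.h3.cube (h.ord hx x1) (mem_centralizer_iff.1 hz.2 x (h1 hx)).symm hk) z1
  have h3 : IsSyl 3 T (centralizer {z}) := hT.mono
    (fun t ht => mem_centralizer_singleton_iff.2 (mem_centralizer_iff.1 hz.2 t ht)) le_top
  exact hT.of_card_ge h.three le_top ((h.h3.card_syl oz h3).trans h.card.symm).le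

theorem eq_or (hx : x ∈ P) (hy : y ∈ zpowers x) : y = 1 ∨ y = x ∨ y = x⁻¹ :=
  eq_or_of_cube (h.cube x hx) hy

theorem not_mem_symm (hx : x ∈ P) (hy : y ∈ P) (h1 : x ≠ 1) (hn : y ∉ zpowers x) :
    x ∉ zpowers y := fun k => by
  rcases h.eq_or hy k with e | e | e
  · exact h1 e
  · exact hn (e ▸ mem_zpowers x)
  · exact hn (inv_mem_iff.1 (e ▸ mem_zpowers x))

theorem V_eq (hx : x ∈ P) (hy : y ∈ zpowers x) (h1 : y ≠ 1) : V y = V x := by
  rcases h.eq_or hx hy with e | e | e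
  · exact absurd e h1
  · rw [e]
  · rw [e, V_inv]

theorem gen_P (hx : x ∈ P) (hy : y ∈ P) (h1 : x ≠ 1) (hn : y ∉ zpowers x) :
    zpowers x ⊔ zpowers y = P := by
  have hle : zpowers x ⊔ zpowers y ≤ P := sup_le (zpowers_le.2 hx) (zpowers_le.2 hy)
  have h2 := card_dvd_of_le hle
  have h3 := card_dvd_of_le (le_sup_left : zpowers x ≤ zpowers x ⊔ zpowers y)
  rw [Nat.card_zpowers, h.ord hx h1] at h3
  rw [h.card, show 9 = 3 ^ 2 from rfl, Nat.dvd_prime_pow Nat.prime_three] at h2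
  obtain ⟨k, hk, e⟩ := h2
  refine eq_of_le_of_card_ge hle ?_
  rw [h.card, e]
  interval_cases k
  · rw [e] at h3; norm_num at h3
  · refine absurd ?_ hn
    rw [eq_of_le_of_card_ge (le_sup_left : zpowers x ≤ zpowers x ⊔ zpowers y)
      (by rw [e, Nat.card_zpowers, h.ord hx h1, pow_one])]
    exact mem_sup_right (mem_zpowers y)
  · norm_num

theorem exists_not_mem (hx : x ∈ P) : ∃ y ∈ P, y ∉ zpowers x := by
  by_contra k
  push Not at k
  have h1 := card_le_of_le (show P ≤ zpowers x from k)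
  have h2 := orderOf_le_of_pow_eq_one (by norm_num) (h.cube x hx)
  rw [h.card, Nat.card_zpowers] at h1
  omega

theorem mem_V (hx : x ∈ P) (h1 : x ≠ 1) {v : G} : v ∈ V x ↔ Commute v x ∧ v * v = 1 :=
  h.h3.mem_V (h.ord hx h1)

theorem sq (hx : x ∈ P) (h1 : x ≠ 1) {v : G} (hv : v ∈ V x) : v * v = 1 :=
  ((h.mem_V hx h1).1 hv).2

theorem V_two (hx : x ∈ P) (h1 : x ≠ 1) : IsPGroup 2 (V x) := two_of_sq fun _ => h.sq hx h1

theorem V_comm (hx : x ∈ P) (h1 : x ≠ 1) : V x ≤ 𝐂[V x] := fun _ hu =>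
  mem_centralizer_iff.2 fun _ hv =>
    comm_of_sq' (h.sq hx h1 hv) (h.sq hx h1 hu) (h.sq hx h1 (mul_mem hv hu))

theorem le_nV (hx : x ∈ P) (_h1 : x ≠ 1) : P ≤ 𝐍[V x] := fun y hy => by
  rw [← cj_eq_iff, ← V_conj, (h.comm hy hx).eq, mul_inv_cancel_right]

theorem card_V (hx : x ∈ P) (h1 : x ≠ 1) (hV : V x ≠ ⊥) : Nat.card (V x) = 4 :=
  h.h3.card_V (h.ord hx h1) hV

theorem fpf (hx : x ∈ P) (hy : y ∈ P) (h1 : x ≠ 1) (hn : y ∉ zpowers x) {v : G} (hv : v ∈ V x)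
    (hc : Commute v y) : v = 1 :=
  h.h3.fpf (h.ord hx h1) (h.comm hy hx) (h.cube y hy) hn hv hc

/-- `V x = {1, v, vʸ, vʸʸ}` -/
theorem V_cases (hx : x ∈ P) (hy : y ∈ P) (h1 : x ≠ 1) (hn : y ∉ zpowers x) {v u : G} (hv : v ∈ V x)
    (v1 : v ≠ 1) (hu : u ∈ V x) :
    u = 1 ∨ u = v ∨ u = y * v * y⁻¹ ∨ u = y⁻¹ * v * y := by
  classical
  have n1 : y * v * y⁻¹ ≠ v := fun e => v1 (h.fpf hx hy h1 hn hv
    (mul_inv_eq_iff_eq_mul.1 e).symm)
  have n2 : y⁻¹ * v * y ≠ v := fun e => v1 (h.fpf hx hy h1 hn hv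
    (by rw [mul_assoc, inv_mul_eq_iff_eq_mul] at e; exact e))
  have n3 : y * v * y⁻¹ ≠ y⁻¹ * v * y := fun e => n2 (by
    have e1 := h.cube y hy
    calc y⁻¹ * v * y = y ^ 3 * (y⁻¹ * v * y) * (y ^ 3)⁻¹ := by rw [e1]; group
      _ = y * (y * v * y⁻¹) * y⁻¹ := by rw [pow_three]; group
      _ = v := by rw [e]; group)
  have m1 : y * v * y⁻¹ ≠ 1 := fun e => v1 (by simpa using e)
  have m2 : y⁻¹ * v * y ≠ 1 := fun e => v1 (by
    calc v = y * (y⁻¹ * v * y) * y⁻¹ := by group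
      _ = 1 := by rw [e]; group)
  have hS : ({1, v, y * v * y⁻¹, y⁻¹ * v * y} : Set G) ⊆ V x := by
    intro w hw
    simp only [Set.mem_insert_iff, Set.mem_singleton_iff] at hw
    rcases hw with rfl | rfl | rfl | rfl
    · exact one_mem _
    · exact hv
    · exact conj_mem_of_mem_normalizer (h.le_nV hx h1 hy) hv
    · exact inv_conj_mem_of_mem_normalizer (h.le_nV hx h1 hy) hv
  have hc : ({1, v, y * v * y⁻¹, y⁻¹ * v * y} : Set G).ncard = 4 := by
    rw [Set.ncard_insert_of_notMem (by simp [v1.symm, m1.symm, m2.symm]),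
      Set.ncard_insert_of_notMem (by simp [n1.symm, n2.symm]), Set.ncard_pair n3]
  have := Set.eq_of_subset_of_ncard_le hS (by
    rw [hc, ← h.card_V hx h1 (fun e => v1 (mem_bot.1 (e ▸ hv)))]; rfl)
  have hu' : u ∈ (V x : Set G) := hu
  rw [← this] at hu'
  simpa using hu'

/-- `v · vʸ · vʸʸ = 1` -/
theorem V_mul (hx : x ∈ P) (hy : y ∈ P) (h1 : x ≠ 1) (hn : y ∉ zpowers x) {v : G} (hv : v ∈ V x) :
    v * (y * v * y⁻¹) = y⁻¹ * v * y := by
  by_cases v1 : v = 1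
  · simp [v1]
  have v2 := h.sq hx h1 hv
  rcases h.V_cases hx hy h1 hn hv v1
    (mul_mem hv (conj_mem_of_mem_normalizer (h.le_nV hx h1 hy) hv)) with e | e | e | e
  · refine absurd (h.fpf hx hy h1 hn hv (show v * y = y * v from ?_)) v1
    rw [← v2] at e
    conv_lhs => rw [← mul_left_cancel e]
    group
  · exact absurd (by simpa using e) v1
  · exact absurd (by simpa using e) v1
  · exact e

theorem V_le_of_mem (hx : x ∈ P) (hy : y ∈ P) (h1 : x ≠ 1) (hn : y ∉ zpowers x) {K : Subgroup G}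
    (hK : y ∈ 𝐍[K]) {v : G} (hv : v ∈ V x) (v1 : v ≠ 1) (hvK : v ∈ K) : V x ≤ K := fun u hu => by
  rcases h.V_cases hx hy h1 hn hv v1 hu with rfl | rfl | rfl | rfl
  · exact one_mem _
  · exact hvK
  · exact conj_mem_of_mem_normalizer hK hvK
  · exact inv_conj_mem_of_mem_normalizer hK hvK

theorem irr (hx : x ∈ P) (h1 : x ≠ 1) {K : Subgroup G} (hK : P ≤ 𝐍[K]) :
    V x ⊓ K = ⊥ ∨ V x ≤ K := by
  obtain ⟨y, hy, hn⟩ := h.exists_not_mem hx
  refine or_iff_not_imp_left.2 fun k => ?_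
  obtain ⟨⟨v, hv⟩, v1⟩ := ne_bot_iff_exists_ne_one.1 k
  exact h.V_le_of_mem hx hy h1 hn (hK hy) hv.1 (fun e => v1 (Subtype.ext e)) hv.2

theorem V_inf (hx : x ∈ P) (hy : y ∈ P) (h1 : x ≠ 1) (hn : y ∉ zpowers x) : V x ⊓ V y = ⊥ :=
  (eq_bot_iff_forall _).2 fun _ hv => h.fpf hx hy h1 hn hv.1
    ((h.mem_V hy fun e => hn (e ▸ one_mem _)).1 hv.2).1

theorem adj_of_comm (hx : x ∈ P) (hy : y ∈ P) (h1 : x ≠ 1) (hn : y ∉ zpowers x) {u w : G}
    (hu : u ∈ V x) (hw : w ∈ V y) (u1 : u ≠ 1) (w1 : w ≠ 1) (hc : Commute u w) : Adj x y := by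
  have y1 : y ≠ 1 := fun e => hn (e ▸ one_mem _)
  have k1 : V y ≤ centralizer {u} := h.V_le_of_mem hy hx y1 (h.not_mem_symm hx hy h1 hn)
    (by rw [← cj_eq_iff, ← centralizer_singleton_conj, ← ((h.mem_V hx h1).1 hu).1.eq,
      mul_inv_cancel_right]) hw w1 (mem_centralizer_singleton_iff.2 hc.symm)
  refine ⟨fun e => u1 (mem_bot.1 (e ▸ hu)), fun e => w1 (mem_bot.1 (e ▸ hw)), ?_⟩
  exact h.V_le_of_mem hx hy h1 hn (le_normalizer_centralizer (h.le_nV hy y1) hy) hu u1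
    (mem_centralizer_iff.2 fun v hv => mem_centralizer_singleton_iff.1 (k1 hv))

theorem not_mem_two {K : Subgroup G} (h2 : IsPGroup 2 K) {p : G} (hp : p ∈ P) (hK : p ∈ K) :
    p = 1 := by
  by_contra k
  exact k (eq_one_of_isPGroup_of_coprime h2 hK (by rw [h.ord hp k]; norm_num))

end Sy

end Cfsg.Agent.On3
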