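import Cfsg.Statements.S3253
import Cfsg.Agent.PLocal.Amb

/-! Groups whose elements of order `3` have centralizer `3 × 3` or `3 × A₄`: definitions. -/

set_option autoImplicit false

namespace Cfsg.Agent.On3

open Subgroup Cfsg

/-- the six groups -/
def Concl (G : Type*) [Group G] : Prop :=
  Nonempty (G ≃* ↥(alternatingGroup (Fin 6))) ∨ Nonempty (G ≃* ↥(alternatingGroup (Fin 7))) ∨
    (∃ (F : Type) (_ : Field F) (_ : Fintype F), (Fintype.card F = 4 ∨ Fintype.card F = 7) ∧
      Nonempty (G ≃* Matrix.ProjectiveSpecialLinearGroup (Fin 3) F)) ∨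
    (∃ (F : Type) (_ : Field F) (_ : Fintype F), Fintype.card F = 25 ∧
      Nonempty (G ≃* Cfsg.PSU 3 F 5)) ∨
    Cfsg.Spor.IsoM22 G

/-- `X ≅ L₃(4)` -/
def IsL34 (X : Type*) [Group X] : Prop :=
  ∃ (F : Type) (_ : Field F) (_ : Fintype F), Fintype.card F = 4 ∧
    Nonempty (X ≃* Matrix.ProjectiveSpecialLinearGroup (Fin 3) F)

/-- every element of order `3` has centralizer `3 × 3` -/
structure CC (X : Type*) [Group X] : Prop where
  ex : ∃ x : X, orderOf x = 3
  card : ∀ x : X, orderOf x = 3 → Nat.card (centralizer ({x} : Set X)) = 9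
  cube : ∀ x c : X, orderOf x = 3 → Commute c x → c ^ 3 = 1

/-- the fixed points of an automorphism -/
def Fx {R : Type*} [Group R] (α : MulAut R) : Subgroup R := α.toMonoidHom.eqLocus (MonoidHom.id R)

theorem mem_Fx {R : Type*} [Group R] {α : MulAut R} {r : R} : r ∈ Fx α ↔ α r = r := Iff.rfl

end Cfsg.Agent.On3
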