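import Cfsg.Agent.On3.Defs
import Cfsg.Agent.PLocal.WeakClosed

/-! Groups whose elements of order `3` have centralizer `3 × 3` or `3 × A₄`: frames. -/

set_option autoImplicit false

namespace Cfsg.Agent.On3

open Subgroup Cfsg Cfsg.Agent.PLocal Cfsg.Agent.PLocal.Amb
open scoped commutatorElement

variable {G : Type*} [Group G]

/-- the local hypothesis -/
def H3 (G : Type*) [Group G] : Prop := ∀ s : G, orderOf s = 3 →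
  Nonempty (↥(centralizer ({s} : Set G)) ≃* (Multiplicative (ZMod 3) × Multiplicative (ZMod 3))) ∨
  Nonempty (↥(centralizer ({s} : Set G)) ≃*
    (Multiplicative (ZMod 3) × ↥(alternatingGroup (Fin 4))))

/-- `O₂(C(x))`: trivial or a four-group when `x` has order `3` -/
def V (x : G) : Subgroup G := closure {v : G | Commute v x ∧ v * v = 1}

/-- `O₂(N(V x))` -/
def R (x : G) : Subgroup G := pCoreOf 2 𝐍[V x]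

/-- the two four-groups commute -/
structure Adj (x y : G) : Prop where
  l : V x ≠ ⊥
  r : V y ≠ ⊥
  le : V x ≤ 𝐂[V y]

/-- `P` is a (Sylow) subgroup `3 × 3` -/
structure Sy (P : Subgroup G) : Prop where
  h3 : H3 G
  card : Nat.card P = 9
  cube : ∀ x ∈ P, x ^ 3 = 1

/-- `s` inverts `P` -/
def Inv (P : Subgroup G) (s : G) : Prop := ∀ x ∈ P, s * x * s⁻¹ = x⁻¹

/-- `a, b, c, d` generate the four subgroups of order `3` of `P`; `g` has order `4`, interchanges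
`⟨a⟩, ⟨b⟩` and `⟨c⟩, ⟨d⟩`, and `s = g * g` inverts `P` -/
structure Fr (P : Subgroup G) (a b c d g : G) : Prop where
  sy : Sy P
  ha : a ∈ P
  hb : b ∈ P
  hc : c ∈ P
  hd : d ∈ P
  ab : b ∉ zpowers a
  ac : c ∉ zpowers a
  ad : d ∉ zpowers a
  ba : a ∉ zpowers b
  bc : c ∉ zpowers b
  bd : d ∉ zpowers b
  ca : a ∉ zpowers c
  cb : b ∉ zpowers c
  cd : d ∉ zpowers c
  da : a ∉ zpowers d
  db : b ∉ zpowers d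
  dc : c ∉ zpowers d
  cov : ∀ x ∈ P, x ∈ zpowers a ∨ x ∈ zpowers b ∨ x ∈ zpowers c ∨ x ∈ zpowers d
  gP : g ∈ 𝐍[P]
  g4 : g * g * (g * g) = 1
  inv : Inv P (g * g)
  ga : cj(g, V a) = V b
  gb : cj(g, V b) = V a
  gc : cj(g, V c) = V d
  gd : cj(g, V d) = V c

/-- the local structure of `M₂₂`: `𝐍[E] = 2⁴ : A₆`, `Q = 2^{1+4}_+`, `B = Q ⊓ E` -/
structure QD (E B Q T : Subgroup G) (x z e s : G) : Prop where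
  ox : orderOf x = 3
  z1 : z ≠ 1
  sqE : ∀ y ∈ E, y * y = 1
  cardE : Nat.card E = 16
  centE : 𝐂[E] ≤ E
  nt : ∀ t ∈ 𝐍[E], t * t = 1 → t ∉ E → Nat.card ↥(E ⊓ 𝐂[zpowers t]) = 4
  invs : ∀ t ∈ 𝐍[E], t * t = 1 → t ∉ E → ∃ m ∈ 𝐍[E], m * t * m⁻¹ = s
  trans : ∀ y ∈ E, y ≠ 1 → ∃ m ∈ 𝐍[E], m * y * m⁻¹ = z
  sylM : IsSyl 2 T 𝐍[E]
  cardT : Nat.card T = 128
  card0 : Nat.card ↥(𝐍[E] ⊓ 𝐂[zpowers z]) = 384
  ET : E ≤ T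
  Tz : T ≤ 𝐂[zpowers z]
  xE : x ∈ 𝐍[E]
  xz : Commute x z
  xe : Commute x e
  cx : ∀ c : G, Commute c x → Commute c z →
    ∃ p ∈ zpowers x, c = p ∨ c = p * z ∨ c = p * e ∨ c = p * (e * z)
  zB : z ∈ B
  eE : e ∈ E
  eB : e ∉ B
  cardB : Nat.card B = 8
  nB : 𝐍[E] ⊓ 𝐂[zpowers z] ≤ 𝐍[B]
  QE : Q ⊓ E = B
  QT : Q ≤ T
  cardQ : Nat.card Q = 32
  le_nQ : 𝐍[E] ⊓ 𝐂[zpowers z] ≤ 𝐍[Q]
  nQ : 𝐍[Q] ≤ 𝐍[E]
  comQ : ∀ q ∈ Q, ∀ r ∈ Q, ⁅q, r⁆ ∈ zpowers z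
  cenQ : Q ⊓ 𝐂[Q] ≤ zpowers z
  four : ∃ q ∈ Q, q * q = z
  fpf : ∀ q ∈ Q, ⁅q, x⁆ ∈ zpowers z → q ∈ zpowers z
  Ze : ∀ q ∈ Q, ⁅q, e⁆ ∈ zpowers z → q ∈ B
  ss : s * s = 1
  sT : s ∈ T
  sx : s * x * s⁻¹ = x⁻¹
  sE : ∀ q ∈ Q, q * s ∉ E
  covT : ∀ t ∈ T, t ∈ Q ∨ t * e ∈ Q ∨ t * s ∈ Q ∨ t * (e * s) ∈ Q
  two : ∃ t ∈ T, t * t = 1 ∧ ⁅s, t⁆ ∉ E

end Cfsg.Agent.On3
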