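import Cfsg.Agent.On3.Defs
import Cfsg.Agent.Misc.SpecL2
import Cfsg.Agent.Inv.SU3Syl
import Cfsg.Agent.Class.PGL2Subfield
import Cfsg.Agent.S0281
import Cfsg.Agent.S0254

/-! Linear and unitary groups of dimension at most 3 with Sylow 3-subgroups of type `3 × 3`. -/

set_option autoImplicit false

namespace Cfsg.Agent.On3

open Subgroup Cfsg Matrix
open scoped MatrixGroups

theorem not27 {G : Type*} [Group G] [Finite G]
    (h : ∀ x : G, orderOf x = 3 → ¬ 27 ∣ Nat.card (centralizer ({x} : Set G))) :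
    ¬ 27 ∣ Nat.card G := fun h27 => by
  obtain ⟨P, hP⟩ := Sylow.exists_subgroup_card_pow_prime 3 (n := 3) h27
  have : Nontrivial P := Finite.one_lt_card_iff_nontrivial.1 (by rw [hP]; norm_num)
  have hp : IsPGroup 3 P := IsPGroup.of_card hP
  have := hp.center_nontrivial
  obtain ⟨n, hn, e⟩ := (hp.to_subgroup (center P)).nontrivial_iff_card.1 this
  obtain ⟨z, hz⟩ := exists_prime_orderOf_dvd_card' (G := center P) 3 (e ▸ dvd_pow_self 3 hn.ne')
  refine h ((z : P) : G) (by rw [orderOf_coe, orderOf_coe, hz]) ?_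
  refine (show 27 = Nat.card P by rw [hP]; rfl) ▸ card_dvd_of_le fun x hx => ?_
  exact mem_centralizer_singleton_iff.2 (congrArg Subtype.val (mem_center_iff.1 z.2 ⟨x, hx⟩))

variable {F : Type*} [Field F]

theorem l2_nine [Fintype F] (h9 : 9 ∣ Nat.card PSL(2, F)) (h27 : ¬ 27 ∣ Nat.card PSL(2, F))
    (h : ∀ g : PSL(2, F), ¬ 9 ∣ orderOf g) : Fintype.card F = 9 := by
  have e := Class.Dickson.gcd_mul_card_PSL2 (K := F)
  obtain ⟨a, ha⟩ := Misc.Spec.exists_PSL2_orderOf_split (F := F)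
  obtain ⟨b, hb⟩ := Misc.Spec.exists_PSL2_orderOf_nonsplit (F := F)
  have d1 := Nat.gcd_dvd_right 2 (Nat.card F - 1)
  have d2 := Misc.Spec.gcd_two_dvd_add_one (F := F)
  have cd : Nat.Coprime 3 (Nat.gcd 2 (Nat.card F - 1)) :=
    Nat.Coprime.coprime_dvd_right (Nat.gcd_dvd_left _ _) (by norm_num)
  have k : ∀ {n : ℕ} (g : PSL(2, F)), Nat.gcd 2 (Nat.card F - 1) ∣ n →
      orderOf g = n / Nat.gcd 2 (Nat.card F - 1) → ¬ 9 ∣ n := fun g d e h9 =>
    h g ((Nat.Coprime.pow_left 2 cd).dvd_of_dvd_mul_left (by rwa [e, Nat.mul_div_cancel' d]))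
  have k1 := k a d1 ha
  have k2 := k b d2 hb
  have h1 : 9 ∣ Nat.card F * (Nat.card F ^ 2 - 1) := e ▸ h9.mul_left _
  have h2 : 1 < Nat.card F := Finite.one_lt_card
  rw [show Nat.card F ^ 2 - 1 = (Nat.card F + 1) * (Nat.card F - 1) by
    simpa using Nat.sq_sub_sq (Nat.card F) 1] at h1 e
  have c9 : ∀ n, ¬ 3 ∣ n → Nat.Coprime 9 n := fun n hn =>
    Nat.Coprime.pow_left 2 ((Nat.Prime.coprime_iff_not_dvd Nat.prime_three).2 hn)
  rw [← Nat.card_eq_fintype_card]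
  by_cases h3 : 3 ∣ Nat.card F
  · obtain ⟨p, _, n, hp, hn⟩ := FiniteField.card' F
    rw [← Nat.card_eq_fintype_card] at hn
    obtain rfl : 3 = p := (Nat.prime_dvd_prime_iff_eq Nat.prime_three hp).1
      (Nat.prime_three.dvd_of_dvd_pow (hn ▸ h3))
    have h4 : 9 ∣ Nat.card F := (Nat.Coprime.mul_right (c9 _ (by omega)) (c9 _ (by omega))
      |>.dvd_of_dvd_mul_right h1)
    have h5 : ¬ 27 ∣ Nat.card F := fun x =>
      h27 ((Nat.Coprime.pow_left 3 cd).dvd_of_dvd_mul_left (e ▸ x.mul_right _))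
    rw [hn] at h4 h5 ⊢
    have h6 := (Nat.pow_dvd_pow_iff_le_right (by norm_num : 1 < 3) (k := 2)).1 h4
    have h7 := mt (Nat.pow_dvd_pow_iff_le_right (by norm_num : 1 < 3) (k := 3)).2 h5
    rw [show (n : ℕ) = 2 by omega]
    rfl
  · have h4 := (c9 _ h3).dvd_of_dvd_mul_left h1
    by_cases h5 : 3 ∣ Nat.card F + 1
    · exact absurd ((c9 _ (by omega)).dvd_of_dvd_mul_right h4) k2
    · exact absurd ((c9 _ h5).dvd_of_dvd_mul_left h4) k1

theorem alt6_of_l2 {G : Type*} [Group G] [Fintype F] (e : G ≃* PSL(2, F)) (h9 : 9 ∣ Nat.card G)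
    (h27 : ¬ 27 ∣ Nat.card G) (h : ∀ g : G, ¬ 9 ∣ orderOf g) :
    Nonempty (G ≃* alternatingGroup (Fin 6)) := by
  rw [Nat.card_congr e.toEquiv] at h9 h27
  obtain ⟨f⟩ := S0254.result (l2_nine h9 h27 fun g => e.symm.orderOf_eq g ▸ h (e.symm g))
  exact ⟨e.trans f⟩

theorem sl2_split [Finite F] : ∃ g : SL(2, F), orderOf g = Nat.card F - 1 := by
  obtain ⟨a, ha⟩ := IsCyclic.exists_ofOrder_eq_natCard (α := Fˣ)
  let f : Fˣ →* SL(2, F) := MonoidHom.mk'
    (fun a => ⟨!![a, 0; 0, (a⁻¹ : Fˣ)], by simp [det_fin_two]⟩) fun a b =>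
      Subtype.ext (show _ = (_ : Matrix _ _ F) * (_ : Matrix _ _ F) by simp [mul_comm])
  exact ⟨f a, by rw [orderOf_injective f fun a b e =>
    Units.ext (congrArg (fun g : SL(2, F) => g.1 0 0) e), ha, Nat.card_units]⟩

theorem sl2_nonsplit [Finite F] : ∃ g : SL(2, F), orderOf g = Nat.card F + 1 := by
  obtain ⟨g, hg⟩ := KSG.M2.exists_noEig (F := F)
  obtain ⟨c, hc, -⟩ := Misc.Spec.PSL2_exists_gen hg.trace_sq_ne_four
  exact ⟨c, by rw [← Nat.card_zpowers, hc, KSG.M2.SL_card_centralizer_noEig hg]⟩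

/-- `A ↦ diag(A, 1)` -/
def blk : SL(2, F) →* SL(3, F) := MonoidHom.mk'
  (fun A => ⟨!![A.1 0 0, A.1 0 1, 0; A.1 1 0, A.1 1 1, 0; 0, 0, 1], by
    simpa [det_fin_three] using (det_fin_two A.1).symm.trans A.2⟩) fun A B =>
      Subtype.ext (show _ = (_ : Matrix _ _ F) * (_ : Matrix _ _ F) by
        simp [Matrix.mul_apply, Fin.sum_univ_succ])

theorem blk_val (A : SL(2, F)) :
    (blk A).1 = !![A.1 0 0, A.1 0 1, 0; A.1 1 0, A.1 1 1, 0; 0, 0, 1] := rfl

/-- the cyclic permutation matrix -/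
def cyc : SL(3, F) := ⟨!![0, 0, 1; 1, 0, 0; 0, 1, 0], by simp [det_fin_three]⟩

theorem blk_eq_one {A : SL(2, F)} (h : cyc * blk A = blk A * cyc) : A = 1 := by
  have e : ∀ i j, ((cyc (F := F)).1 * (blk A).1) i j = ((blk A).1 * (cyc (F := F)).1) i j :=
    fun i j => congrArg (fun g : SL(3, F) => g.1 i j) h
  have e1 := e 0 2
  have e2 := e 2 1
  have e3 := e 0 0
  have e4 := e 2 0
  simp [cyc, blk_val, Matrix.mul_apply, Fin.sum_univ_succ] at e1 e2 e3 e4
  ext i j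
  fin_cases i <;> fin_cases j <;> simp [← e1, e2, ← e3, e4]

theorem exists_ord {K : Type*} [Group K] (f : K →* SL(3, F)) {y : K} (hy : f y = cyc)
    {H : Type*} [Group H] (g : H →* K) (β : H →* SL(2, F)) (hβ : Function.Injective β)
    (hg : ∀ x, f (g x) = blk (β x)) (x : H) : ∃ w : K ⧸ center K, orderOf w = orderOf x := by
  refine ⟨_, orderOf_injective ((QuotientGroup.mk' _).comp g)
    ((injective_iff_map_eq_one _).2 fun x e => hβ ?_) x⟩
  have := congrArg f (mem_center_iff.1 ((QuotientGroup.eq_one_iff _).1 e) y)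
  rw [map_mul, map_mul, hy, hg] at this
  rw [blk_eq_one this, map_one]

theorem l3_ord (x : SL(2, F)) : ∃ w : PSL(3, F), orderOf w = orderOf x :=
  exists_ord (MonoidHom.id _) rfl blk (MonoidHom.id _) (fun _ _ e => e) (fun _ => rfl) x

theorem u3_ord {q : ℕ} (x : SU 2 F q) : ∃ w : PSU 3 F q, orderOf w = orderOf x := by
  refine exists_ord (SU 3 F q).subtype (y := ⟨cyc, fun u v => ?_⟩) rfl
    ((blk.comp (SU 2 F q).subtype).codRestrict _ fun A u v => ?_) (SU 2 F q).subtype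
    (subtype_injective _) (fun _ => rfl) x
  · change hermForm 3 F q ((cyc (F := F)).1 *ᵥ u) ((cyc (F := F)).1 *ᵥ v) = _
    simp [hermForm, Fin.sum_univ_three, mulVec, dotProduct, cyc]
    ring
  · have := A.2 ![u 0, u 1] ![v 0, v 1]
    change hermForm 2 F q (A.1.1 *ᵥ _) (A.1.1 *ᵥ _) = _ at this
    change hermForm 3 F q ((blk A.1).1 *ᵥ u) ((blk A.1).1 *ᵥ v) = _
    simp [hermForm, Fin.sum_univ_succ, mulVec, dotProduct, blk_val] at this ⊢
    linear_combination this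

theorem l3_27 [Finite F] (h : 3 ∣ Nat.card F) : 27 ∣ Nat.card PSL(3, F) := by
  have := Fintype.ofFinite F
  have h1 := Class.card_units_mul_card_SL (ι := Fin 3) (R := F)
  have h2 : 1 < Nat.card F := Finite.one_lt_card
  rw [Matrix.card_GL_field, Nat.card_units, ← Class.gcd_mul_card_PSL,
    ← Nat.card_eq_fintype_card (α := F), Fin.prod_univ_three, ← mul_assoc] at h1
  have c : Nat.Coprime 3 (Nat.card F - 1) :=
    (Nat.Prime.coprime_iff_not_dvd Nat.prime_three).2 (by omega)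
  refine (Nat.Coprime.pow_left 3 (c.mul_right (c.coprime_dvd_right
    (Nat.gcd_dvd_right (Fintype.card (Fin 3)) _)))).dvd_of_dvd_mul_left ?_
  rw [h1, mul_assoc]
  refine Dvd.dvd.mul_left (mul_dvd_mul (a := 3) (c := 9) (Nat.dvd_sub ?_ ?_) (Nat.dvd_sub ?_ ?_)) _
  · exact h.trans (dvd_pow_self _ (by simp))
  · exact h.trans (dvd_pow_self _ (by simp))
  · exact (pow_dvd_pow_of_dvd h 2).trans (pow_dvd_pow _ (by simp))
  · exact pow_dvd_pow_of_dvd h 2

theorem u3_27 [Fintype F] {q : ℕ} (hF : Fintype.card F = q ^ 2) (h : 3 ∣ q) :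
    27 ∣ Nat.card (PSU 3 F q) := by
  have := Class.U.UF.of_card hF
  have h1 := Class.U.card_PSU_mul (F := F) (q := q) (n := 3) (by norm_num)
  rw [Inv.UH.card_SU3, show Nat.gcd 3 (q + 1) = 1 from
    (Nat.Prime.coprime_iff_not_dvd Nat.prime_three).2 (by omega), one_mul] at h1
  exact h1 ▸ (pow_dvd_pow_of_dvd h 3).mul_right _

theorem u3_both [Fintype F] {q : ℕ} (hF : Fintype.card F = q ^ 2) :
    (∃ w : PSU 3 F q, orderOf w = q - 1) ∧ ∃ w : PSU 3 F q, orderOf w = q + 1 := by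
  obtain ⟨p, _, n, hp, hn⟩ := FiniteField.card' F
  obtain ⟨k, -, rfl⟩ := (Nat.dvd_prime_pow hp).1 (hn ▸ hF ▸ dvd_pow_self q two_ne_zero)
  have := Fact.mk hp
  have k0 : k ≠ 0 := by
    rintro rfl
    have := Fintype.one_lt_card (α := F)
    simp [hF] at this
  have := Fintype.ofFinite (GaloisField p k)
  have hK := GaloisField.card p k k0
  obtain ⟨e⟩ := S0281.result hF (Nat.card_eq_fintype_card.symm.trans hK)
  obtain ⟨a, ha⟩ := sl2_split (F := GaloisField p k)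
  obtain ⟨b, hb⟩ := sl2_nonsplit (F := GaloisField p k)
  obtain ⟨a', ha'⟩ := u3_ord (e.symm a)
  obtain ⟨b', hb'⟩ := u3_ord (e.symm b)
  exact ⟨⟨a', by rw [ha', e.symm.orderOf_eq, ha, hK]⟩, b', by rw [hb', e.symm.orderOf_eq, hb, hK]⟩

end Cfsg.Agent.On3
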