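import Cfsg.Agent.On3.Fr

/-! The centralizer of an element of order `3`. -/

set_option autoImplicit false

namespace Cfsg.Agent.On3

open Subgroup Cfsg Cfsg.Agent.PLocal Cfsg.Agent.PLocal.Amb

/-- common properties of `3 × 3` and `3 × A₄` -/
structure Loc (X : Type*) [Group X] : Prop where
  six : ∀ c : X, c ^ 6 = 1
  mul : ∀ u v : X, u * u = 1 → v * v = 1 → u * v * (u * v) = 1
  card : (Nat.card X = 9 ∧ Nat.card {v : X // v * v = 1} = 1) ∨
    (Nat.card X = 36 ∧ Nat.card {v : X // v * v = 1} = 4)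
  fpf : ∀ x y v : X, x ≠ 1 → (∀ c, c * x = x * c) → y ^ 3 = 1 → y ≠ 1 → y ≠ x → y ≠ x⁻¹ →
    v * v = 1 → v * y = y * v → v = 1

theorem Loc.of_equiv {X Y : Type*} [Group X] [Group Y] (h : Loc Y) (e : X ≃* Y) : Loc X where
  six c := e.injective (by rw [map_pow, h.six, map_one])
  mul u v hu hv := e.injective (by
    simp only [map_mul, map_one]
    exact h.mul _ _ (by rw [← map_mul, hu, map_one]) (by rw [← map_mul, hv, map_one]))
  card := by
    have k : Nat.card {v : X // v * v = 1} = Nat.card {v : Y // v * v = 1} :=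
      Nat.card_congr (e.toEquiv.subtypeEquiv fun v => by
        show v * v = 1 ↔ e v * e v = 1
        rw [← map_mul, map_eq_one_iff e e.injective])
    rw [k, Nat.card_congr e.toEquiv]
    exact h.card
  fpf x y v h1 h2 h3 h4 h5 h6 h7 h8 := by
    rw [← map_eq_one_iff e e.injective]
    refine h.fpf (e x) (e y) (e v) (by simpa using h1) (fun c => ?_) (by rw [← map_pow, h3, map_one])
      (by simpa using h4) (by simpa using h5) (by rw [← map_inv]; exact fun k => h6 (e.injective k))
      (by rw [← map_mul, h7, map_one]) (by rw [← map_mul, h8, map_mul])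
    obtain ⟨c, rfl⟩ := e.surjective c
    rw [← map_mul, h2, map_mul]

theorem loc_nine : Loc (Multiplicative (ZMod 3) × Multiplicative (ZMod 3)) where
  six := by decide
  mul := by decide
  card := Or.inl ⟨by simp, by rw [Nat.card_eq_fintype_card]; decide⟩
  fpf _ _ v _ _ _ _ _ _ h _ :=
    (by decide : ∀ v : Multiplicative (ZMod 3) × Multiplicative (ZMod 3), v * v = 1 → v = 1) v h

theorem loc_a4 : Loc (Multiplicative (ZMod 3) × ↥(alternatingGroup (Fin 4))) where
  six := by decide +kernel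
  mul := by decide +kernel
  card := Or.inr ⟨by rw [Nat.card_eq_fintype_card]; decide +kernel,
    by rw [Nat.card_eq_fintype_card]; decide +kernel⟩
  fpf := by
    rintro ⟨i, σ⟩ ⟨j, τ⟩ ⟨k, ν⟩ h1 h2 h3 h4 h5 h6 h7 h8
    have e1 : σ = 1 := by
      have : ∀ σ : alternatingGroup (Fin 4), (∀ c, c * σ = σ * c) → σ = 1 := by decide +kernel
      exact this σ fun c => congrArg Prod.snd (h2 (1, c))
    subst e1
    have e2 : τ ≠ 1 := by
      rintro rfl
      have : ∀ i j : Multiplicative (ZMod 3), i ≠ 1 → j ≠ 1 → j ≠ i → j = i⁻¹ := by decide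
      exact h6 (by
        rw [this i j (fun e => h1 (by rw [e]; rfl)) (fun e => h4 (by rw [e]; rfl))
          (fun e => h5 (by rw [e]))]
        simp)
    have e3 : ∀ k : Multiplicative (ZMod 3), k * k = 1 → k = 1 := by decide
    have e4 : ∀ τ ν : alternatingGroup (Fin 4), τ ^ 3 = 1 ∧ ν * ν = 1 ∧ ν * τ = τ * ν →
        τ = 1 ∨ ν = 1 := by decide +kernel
    exact Prod.ext (e3 k (congrArg Prod.fst h7))
      ((e4 τ ν ⟨congrArg Prod.snd h3, congrArg Prod.snd h7, congrArg Prod.snd h8⟩).resolve_left e2)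

variable {G : Type*} [Group G]

theorem H3.loc (h : H3 G) {x : G} (hx : orderOf x = 3) : Loc (centralizer ({x} : Set G)) :=
  (h x hx).elim (fun ⟨e⟩ => loc_nine.of_equiv e) fun ⟨e⟩ => loc_a4.of_equiv e

end Cfsg.Agent.On3
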