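import Cfsg.Agent.On3.Defs
import Cfsg.Agent.PLocal.AmbSyl
import Cfsg.Agent.Grp.Card
import Cfsg.Agent.Inv.Basic
import Cfsg.Agent.Class.FieldTransport

/-! Automorphisms of an elementary abelian 2-group: fixed points and displacements. -/

set_option autoImplicit false
set_option linter.unusedSectionVars false
set_option linter.unusedVariables false

namespace Cfsg.Agent.On3

open Subgroup Cfsg

variable {X R : Type*} [Group X] [Group R] [Finite R] {ρ : X →* MulAut R}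

/-- the module situation: `X` acts on `R = 2⁸`, a subgroup `3 × 3` acting as the sum of its four
nontrivial irreducible modules -/
structure Md {X R : Type*} [Group X] [Group R] (ρ : X →* MulAut R) : Prop where
  cc : CC X
  comm : ∀ a b : R, a * b = b * a
  sq : ∀ a : R, a * a = 1
  card : Nat.card R = 256
  three : ∀ x : X, orderOf x = 3 → Nat.card (Fx (ρ x)) = 4
  nine : ∀ x y : X, orderOf x = 3 → Commute y x → y ∉ zpowers x → Fx (ρ x) ⊓ Fx (ρ y) = ⊥
  free : ∀ t x : X, t * t = 1 → orderOf x = 3 → t * x * t⁻¹ = x⁻¹ → Nat.card (Fx (ρ t)) = 16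

theorem card_modEq_Fx {p : ℕ} [Fact p.Prime] {α : MulAut R} (hα : α ^ p = 1) {D : Subgroup R}
    (hD : ∀ d ∈ D, α d ∈ D) : Nat.card D ≡ Nat.card ↥(D ⊓ Fx α) [MOD p] := by
  classical
  have := Fintype.ofFinite D
  let f : Function.End D := fun d => ⟨α d, hD d d.2⟩
  have e : ∀ n (d : D), ((f ^ n) d : R) = (α ^ n) d := fun n => by
    induction n with
    | zero => exact fun _ => rfl
    | succ n ih => exact fun d => by rw [pow_succ, pow_succ]; exact ih (f d)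
  have := Equiv.Perm.card_fixedPoints_modEq (f := f) (p := p) (n := 1)
    (funext fun d => Subtype.ext (by rw [e, pow_one, hα]; rfl))
  rw [← Nat.card_eq_fintype_card, ← Nat.card_eq_fintype_card] at this
  convert this using 1
  exact Nat.card_congr ⟨fun d => ⟨⟨d, d.2.1⟩, Subtype.ext d.2.2⟩,
    fun d => ⟨d.1, d.1.2, congrArg Subtype.val d.2⟩, fun _ => rfl, fun _ => rfl⟩

theorem exists_fix_two (hR : Nat.card R = 256) {A : Subgroup X} (hA : IsPGroup 2 A) :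
    ∃ d : R, d ≠ 1 ∧ ∀ a ∈ A, ρ a d = d := by
  let _ := MulAction.compHom R (ρ.comp A.subtype)
  obtain ⟨d, hd, d1⟩ := hA.exists_fixed_point_of_prime_dvd_card_of_fixed_point R (by rw [hR]; decide)
    (a := 1) fun a => map_one (ρ a)
  exact ⟨d, d1.symm, fun a ha => hd ⟨a, ha⟩⟩

/-- The displacement `r ↦ r⁻¹ · α r`. -/
def dl (hc : ∀ a b : R, a * b = b * a) (α : MulAut R) : R →* R :=
  MonoidHom.mk' (fun r => r⁻¹ * α r) fun a b => by
    rw [map_mul, mul_inv_rev, mul_assoc, ← mul_assoc a⁻¹, hc b⁻¹, mul_assoc, hc (α b)]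

theorem card_dl (hc : ∀ a b : R, a * b = b * a) (α : MulAut R) :
    Nat.card (Fx α) * Nat.card (dl hc α).range = Nat.card R := by
  rw [← index_ker, ← (dl hc α).ker.card_mul_index]
  congr 3
  ext r
  exact (inv_mul_eq_one.trans eq_comm).symm

theorem card_mul_le (hc : ∀ a b : R, a * b = b * a) (A B : Subgroup R) :
    Nat.card ↥(A ⊔ B) * Nat.card ↥(A ⊓ B) = Nat.card A * Nat.card B :=
  have : B.Normal := ⟨fun n hn g => by rwa [hc g, mul_inv_cancel_right]⟩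
  Grp.card_sup_mul_card_inf A B

/-- The elements whose displacements lie in `N`. -/
def Dsp (ρ : X →* MulAut R) (N : Subgroup R) : Subgroup X where
  carrier := {g | ∀ r, r⁻¹ * ρ g r ∈ N}
  one_mem' := fun r => by simp [one_mem]
  mul_mem' := fun {a b} ha hb r => by
    simpa [mul_assoc] using mul_mem (hb r) (ha (ρ b r))
  inv_mem' := fun {a} ha r => by
    simpa using inv_mem (ha (ρ a⁻¹ r))

/-- The stabiliser of `d`. -/
def Stb (ρ : X →* MulAut R) (d : R) : Subgroup X where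
  carrier := {g | ρ g d = d}
  one_mem' := by simp
  mul_mem' := fun {a b} ha hb => by
    rw [Set.mem_ofPred_eq, map_mul, MulAut.mul_apply, hb, ha]
  inv_mem' := fun {a} ha => by
    rw [Set.mem_ofPred_eq, map_inv, MulAut.inv_apply, MulEquiv.symm_apply_eq, ha]

theorem not_mem_zpowers_three {x y : X} (hx : x ^ 3 = 1) (h0 : y ≠ 1) (h1 : y ≠ x) (h2 : y ≠ x * x) :
    y ∉ zpowers x := by
  rintro ⟨k, rfl⟩
  simp only [zpow_eq_zpow_emod' k hx] at h0 h1 h2
  have : k % (3 : ℕ) = 0 ∨ k % (3 : ℕ) = 1 ∨ k % (3 : ℕ) = 2 := by omega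
  rcases this with e | e | e <;> rw [e] at h0 h1 h2
  exacts [h0 (zpow_zero x), h1 (zpow_one x), h2 (zpow_two x)]

open Matrix MatrixGroups Cfsg.Agent.Class

/-- The root elements of the first row. -/
def rE (a b : GF4) : SL(3, GF4) := ⟨!![1, a, b; 0, 1, 0; 0, 0, 1], by simp [det_fin_three]⟩
def e23 : SL(3, GF4) := ⟨!![1, 0, 0; 0, 1, 1; 0, 0, 1], by simp [det_fin_three]⟩
def e32 : SL(3, GF4) := ⟨!![1, 0, 0; 0, 1, 0; 0, 1, 1], by simp [det_fin_three]⟩
def e21 : SL(3, GF4) := ⟨!![1, 0, 0; 1, 1, 0; 0, 0, 1], by simp [det_fin_three]⟩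
def e31 : SL(3, GF4) := ⟨!![1, 0, 0; 0, 1, 0; 1, 0, 1], by simp [det_fin_three]⟩
def mF : SL(3, GF4) := ⟨!![1, 0, 0; 0, 0, 1; 0, 1, ⟨0, 1⟩], by rw [det_fin_three]; decide⟩
def mX : SL(3, GF4) := ⟨!![1, 0, 0; 0, ⟨0, 1⟩, 0; 0, 0, ⟨1, 1⟩], by rw [det_fin_three]; decide⟩
def mY : SL(3, GF4) := ⟨!![0, 0, 1; 1, 0, 0; 0, 1, 0], by simp [det_fin_three]⟩
def mW : SL(3, GF4) := ⟨scalar _ ⟨0, 1⟩, by rw [det_fin_three]; decide⟩

theorem rE_mul : ∀ a b c d, rE a b * rE c d = rE (a + c) (b + d) := by decide +kernel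

theorem rE_norm : ∀ a b, rE a b * rE a b = 1 ∧ (∃ c d, rE a b * mF = mF * rE c d) ∧
    (∃ c d, rE a b * e23 = e23 * rE c d) ∧ ∃ c d, rE a b * e32 = e32 * rE c d := by decide +kernel

theorem sl_rel : mF ^ 5 = 1 ∧ e23 * e23 = 1 ∧ e32 * e32 = 1 ∧
    e23 = mF * mF * (e23 * mF * e23) * (e23 * mF * e23) * mF * mF ∧
    e32 = mF * mF * (e32 * mF * e32) * (e32 * mF * e32) * mF * mF ∧
    mX = e23 * mF * e23 * (e32 * mF * e32) ∧ e23 * mY = mY * rE 1 0 ∧ rE 1 0 * mY = mY * e31 ∧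
    mY = e23 * e32 * e23 * (rE 0 1 * e31 * rE 0 1) ∧ mX * mY = mY * mX * mW ∧ mX ^ 3 = 1 ∧
    mY * mY * mY = 1 ∧ rE 0 1 * mY = mY * e32 ∧ e31 * mY = mY * e23 ∧ e32 * mY = mY * e21 ∧
    e31 * e31 = 1 ∧ e31.transpose = rE 0 1 ∧ e32.transpose = e23 := by decide +kernel

theorem sl_ne : mX * mY ≠ mY * mX ∧ mY * mX ≠ mX * mY ∧ mY * mX * mX * mX ≠ mX * (mY * mX * mX) ∧
    mY * mX * mX ≠ mX * (mY * mX) ∧ (rE 1 0 * e21) ^ 3 = 1 ∧ (rE 0 1 * e31) ^ 3 = 1 ∧
    rE 1 0 * e21 * e21 ≠ e21 * (rE 1 0 * e21) ∧ rE 0 1 * e31 * e31 ≠ e31 * (rE 0 1 * e31) ∧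
    e21 * e21 = 1 := by
  decide +kernel

variable [Finite X]

theorem Md.sixteen (h : Md ρ) {t s : X} (ht : t * t = 1) (hs : s * s = 1) (h3 : (t * s) ^ 3 = 1)
    (h1 : t * s ≠ 1) : Nat.card (Fx (ρ t)) = 16 :=
  h.free t _ ht (orderOf_eq_prime h3 h1) (Inv.conj_mul_eq_inv_left ht hs)

theorem Md.claim (h : Md ρ) {π : SL(3, GF4) →* X} (hk : ∀ g, π g = 1 ↔ g ∈ center _) :
    Fx (ρ (π (rE 1 0))) = Fx (ρ (π (rE 0 1))) := by
  obtain ⟨f5, aa, bb, r1, r2, r3, r4, r5, r6, r7, x3, y3, -, -, -, cc, -⟩ := sl_rel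
  obtain ⟨n1, n2, n3, n4, t1, t2, n5, n6, dd⟩ := sl_ne
  have nc : ∀ {g t : SL(3, GF4)}, g * t ≠ t * g → π g ≠ 1 := fun e e' =>
    e (mem_center_iff.1 ((hk _).1 e') _).symm
  have sx : ∀ {t s : SL(3, GF4)}, t * t = 1 → s * s = 1 → (t * s) ^ 3 = 1 → t * s * s ≠ s * (t * s) →
      Nat.card (Fx (ρ (π t))) = 16 := fun {t s} a b c d => h.sixteen (s := π s)
    (by rw [← map_mul, a, map_one]) (by rw [← map_mul, b, map_one])
    (by rw [← map_mul, ← map_pow, c, map_one]) (by rw [← map_mul]; exact nc d)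
  have c1 := sx (rE_norm 1 0).1 dd t1 n5
  have c2 := sx (rE_norm 0 1).1 cc t2 n6
  set σ := ρ.comp π
  let D : Subgroup R := ⨅ p : GF4 × GF4, Fx (σ (rE p.1 p.2))
  have mD : ∀ {d}, d ∈ D ↔ ∀ a b, σ (rE a b) d = d := fun {d} => by
    simp only [D, mem_iInf, Prod.forall, mem_Fx]
  have l1 : D ≤ Fx (ρ (π (rE 1 0))) := fun d hd => mD.1 hd 1 0
  have l2 : D ≤ Fx (ρ (π (rE 0 1))) := fun d hd => mD.1 hd 0 1
  by_cases e : Nat.card D = 16
  · exact (eq_of_le_of_card_ge l1 (c1.trans e.symm).le).symm.trans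
      (eq_of_le_of_card_ge l2 (c2.trans e.symm).le)
  exfalso
  have nD : ∀ {k}, (∀ a b, ∃ c d, rE a b * k = k * rE c d) → ∀ d ∈ D, σ k d ∈ D := fun hk d hd =>
    mD.2 fun a b => by
      obtain ⟨c, c', e⟩ := hk a b
      rw [← MulAut.mul_apply, ← map_mul, e, map_mul, MulAut.mul_apply, mD.1 hd]
  have fD : D ≤ Fx (σ mF) := by
    have h1 := card_modEq_Fx (p := 5) (by rw [← map_pow, f5, map_one]) (nD fun a b => (rE_norm a b).2.1)
    obtain ⟨i, hi, e1⟩ := (Nat.dvd_prime_pow Nat.prime_two (m := 4)).1 (c1 ▸ card_dvd_of_le l1)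
    obtain ⟨j, hj, e2⟩ := (Nat.dvd_prime_pow Nat.prime_two).1
      (e1 ▸ card_dvd_of_le (inf_le_left : D ⊓ Fx (σ mF) ≤ D))
    refine (eq_of_le_of_card_ge (inf_le_left : D ⊓ Fx (σ mF) ≤ D) ?_).ge.trans inf_le_right
    rw [e1, e2] at h1 ⊢
    rw [e1] at e
    revert h1 e
    interval_cases i <;> interval_cases j <;> decide
  obtain ⟨d, d1, hd⟩ := exists_fix_two (ρ := σ) h.card
    (A := { carrier := {g | ∃ a b, g = rE a b}
            one_mem' := ⟨0, 0, by decide⟩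
            mul_mem' := by rintro _ _ ⟨a, b, rfl⟩ ⟨c, d, rfl⟩; exact ⟨_, _, rE_mul a b c d⟩
            inv_mem' := by
              rintro _ ⟨a, b, rfl⟩; exact ⟨a, b, inv_eq_of_mul_eq_one_right (rE_norm a b).1⟩ })
    (PLocal.Amb.isPGroup_iff.2 (by
      rintro _ ⟨a, b, rfl⟩; exact ⟨1, by rw [pow_one, pow_two, (rE_norm a b).1]⟩))
  have dD : d ∈ D := mD.2 fun a b => hd _ ⟨a, b, rfl⟩
  have hF : mF ∈ Stb σ d := fD dD
  have cF : ∀ {k}, k * k = 1 → (∀ a b, ∃ c d, rE a b * k = k * rE c d) → k * mF * k ∈ Stb σ d :=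
    fun {k} kk hk => by
      change σ (k * mF * k) d = d
      rw [map_mul, map_mul, MulAut.mul_apply, MulAut.mul_apply, mem_Fx.1 (fD (nD hk d dD)),
        ← MulAut.mul_apply,
        ← map_mul, kk, map_one, MulAut.one_apply]
  have ha := cF aa fun a b => (rE_norm a b).2.2.1
  have hb := cF bb fun a b => (rE_norm a b).2.2.2
  have h23 : e23 ∈ Stb σ d :=
    r1 ▸ mul_mem (mul_mem (mul_mem (mul_mem (mul_mem hF hF) ha) ha) hF) hF
  have h32 : e32 ∈ Stb σ d :=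
    r2 ▸ mul_mem (mul_mem (mul_mem (mul_mem (mul_mem hF hF) hb) hb) hF) hF
  have hx : σ mX d = d := (r3 ▸ mul_mem ha hb : mX ∈ Stb σ d)
  have px : π mX ^ 3 = 1 := by rw [← map_pow, x3, map_one]
  have cxy : π mX * π mY = π mY * π mX := by
    rw [← map_mul, r7, map_mul, map_mul, (hk mW).2 (Matrix.SpecialLinearGroup.mem_center_iff.2
      ⟨(⟨0, 1⟩ : GF4), by decide, rfl⟩), mul_one]
  have nine : ∀ {v}, σ mX v = v → σ mY v = v → v = 1 := fun a b => mem_bot.1 ((h.nine _ _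
    (orderOf_eq_prime px (nc n1)) cxy.symm (not_mem_zpowers_three px (nc n2)
      (fun e => nc n3 (by rw [map_mul, map_mul, e, ← pow_three', px]))
      fun e => nc n4 (by rw [map_mul, e, ← pow_three', px]))).le ⟨a, b⟩)
  have sxy : ∀ v, σ mX (σ mY v) = σ mY (σ mX v) := fun v => by
    simpa only [map_mul, MulAut.mul_apply] using! congrArg (fun g => ρ g v) cxy
  have mv : ∀ {g g' : SL(3, GF4)} (v), g * mY = mY * g' → σ g (σ mY v) = σ mY (σ g' v) :=
    fun v e => by rw [← MulAut.mul_apply, ← MulAut.mul_apply, ← map_mul, ← map_mul, e]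
  have v1 : d * σ mY d * σ mY (σ mY d) = 1 := nine (by simp only [map_mul, sxy, hx]) (by
    have : σ mY (σ mY (σ mY d)) = d := by
      simpa only [map_mul, MulAut.mul_apply, map_one, MulAut.one_apply] using congrArg (σ · d) y3
    rw [map_mul, map_mul, this, h.comm _ d, mul_assoc])
  have h31 : e31 ∈ Stb σ d := by
    have := congrArg (σ e23) v1
    rw [map_mul, map_mul, map_one, show σ e23 d = d from h23, mv _ r4, mD.1 dD, mv _ r4, mv _ r5,
      ← v1] at this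
    exact (σ mY).injective ((σ mY).injective (mul_left_cancel this))
  have h13 : rE 0 1 ∈ Stb σ d := mD.1 dD 0 1
  exact d1 (nine hx (r6 ▸ mul_mem (mul_mem (mul_mem h23 h32) h23) (mul_mem (mul_mem h13 h31) h13) :
    mY ∈ Stb σ d))


/-- inverse transpose -/
def invT : SL(3, GF4) ≃* SL(3, GF4) where
  toFun A := A⁻¹.transpose
  invFun A := A.transpose⁻¹
  left_inv A := inv_inv A
  right_inv A := congrArg Matrix.SpecialLinearGroup.transpose (inv_inv A.transpose)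
  map_mul' A B := Subtype.ext (by simp [transpose_mul])

theorem Md.not_l34' (h : Md ρ) : ¬ IsL34 X := by
  rintro ⟨F, _, _, hF, ⟨e⟩⟩
  obtain ⟨-, aa, bb, -, -, -, r4, r5, -, -, -, -, r8, r9, r10, cc, s1, s2⟩ := sl_rel
  obtain ⟨-, -, -, -, t1, -, n5, -, dd⟩ := sl_ne
  obtain ⟨π, hk⟩ : ∃ π : SL(3, GF4) →* X, ∀ g, π g = 1 ↔ g ∈ center _ :=
    ⟨(e.trans (pslCongr _ (ringEquivGF4 hF))).symm.toMonoidHom.comp (QuotientGroup.mk' _), fun g =>
      (MulEquiv.map_eq_one_iff (e.trans (pslCongr _ (ringEquivGF4 hF))).symm).trans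
        (QuotientGroup.eq_one_iff g)⟩
  have cl := fun α : SL(3, GF4) ≃* SL(3, GF4) => h.claim (π := π.comp α.toMonoidHom) fun g =>
    (hk _).trans (MulEquivClass.apply_mem_center_iff α)
  have cj : ∀ {g g' : SL(3, GF4)}, g * mY = mY * g' → (MulAut.conj mY).symm g = g' := fun e => by
    rw [MulAut.conj_symm_apply, mul_assoc, e, inv_mul_cancel_left]
  have h1 := h.claim hk
  have h2 := cl ((MulAut.conj mY).symm.trans invT)
  have h3 := cl ((MulAut.conj mY).symm.trans (MulAut.conj mY).symm)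
  simp only [MonoidHom.comp_apply, MulEquiv.coe_toMonoidHom, MulEquiv.trans_apply] at h2 h3
  rw [cj r5, cj r8] at h2 h3
  rw [cj r9, cj r10] at h3
  rw [show invT e31 = rE 0 1 from (congrArg _ (inv_eq_of_mul_eq_one_right cc)).trans s1,
    show invT e32 = e23 from (congrArg _ (inv_eq_of_mul_eq_one_right bb)).trans s2] at h2
  have n : π (rE 1 0) * π e21 ≠ 1 := fun e =>
    n5 (mem_center_iff.1 ((hk _).1 ((map_mul π _ _).trans e)) _).symm
  have t : (π (rE 1 0) * π e21) ^ 3 = 1 := by rw [← map_mul, ← map_pow, t1, map_one]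
  have := card_le_of_le (show Fx (ρ (π (rE 1 0))) ≤ Fx (ρ (π (rE 1 0) * π e21)) from fun v hv => by
    rw [mem_Fx, map_mul, MulAut.mul_apply, mem_Fx.1 ((h1.trans (h2.trans h3)).le hv), mem_Fx.1 hv])
  rw [h.three _ (orderOf_eq_prime t n), h.sixteen (by rw [← map_mul, (rE_norm 1 0).1, map_one])
    (by rw [← map_mul, dd, map_one]) t n] at this
  omega

end Cfsg.Agent.On3
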