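import Mathlib

/-! Explicit facts about `A₆`. -/

set_option autoImplicit false

namespace Cfsg.Agent.On3

open Equiv.Perm in
def u6 : alternatingGroup (Fin 6) := ⟨c[0, 1] * c[2, 3], mem_alternatingGroup.2 (by decide)⟩
open Equiv.Perm in
def f6 : alternatingGroup (Fin 6) := ⟨c[1, 2, 4, 3, 5], mem_alternatingGroup.2 (by decide)⟩
open Equiv.Perm in
def x6 : alternatingGroup (Fin 6) := ⟨c[3, 4, 5], mem_alternatingGroup.2 (by decide)⟩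
open Equiv.Perm in
def y6 : alternatingGroup (Fin 6) := ⟨c[0, 2, 1] * c[3, 5, 4], mem_alternatingGroup.2 (by decide)⟩
open Equiv.Perm in
def z6 : alternatingGroup (Fin 6) := ⟨c[0, 1] * c[2, 3] * c[2, 3, 4], mem_alternatingGroup.2 (by decide)⟩

theorem a6_conj : ∀ t : alternatingGroup (Fin 6), t * t = 1 → t = 1 ∨ ∃ g, g * t * g⁻¹ = u6 := by
  decide +kernel

theorem a6_three : ∀ w : alternatingGroup (Fin 6), w * w = 1 → u6 * w = w * u6 → w ≠ 1 → w ≠ u6 →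
    ∃ c, c ^ 3 = 1 ∧ c ≠ 1 ∧ c * u6 * c⁻¹ = w ∧ c * w * c⁻¹ = u6 * w := by
  decide +kernel

theorem a6_cent : ∀ w : alternatingGroup (Fin 6), w * w = 1 → u6 * w = w * u6 → w ≠ 1 → w ≠ u6 →
    ∀ c, c * u6 = u6 * c → c * w = w * c → c = 1 ∨ c = u6 ∨ c = w ∨ c = u6 * w := by
  decide +kernel

theorem a6_facts : ∃ u f x y z : alternatingGroup (Fin 6), u * u = 1 ∧ z * z = 1 ∧ (u * z) ^ 3 = 1 ∧
    u * z ≠ 1 ∧ f ^ 5 = 1 ∧ f ≠ 1 ∧ (u * f) ^ 2 ^ 2 = 1 ∧ x = f * f * f * u * f * f * u * f * u ∧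
    y = u * f * f * u * f * f * f * u * f ∧ x ^ 3 = 1 ∧ x ≠ 1 ∧ y * x = x * y ∧ y ≠ 1 ∧ y ≠ x ∧
    y ≠ x * x ∧ u ≠ 1 ∧ (∀ t, t * t = 1 → t = 1 ∨ ∃ g, g * t * g⁻¹ = u) ∧
    ∀ w, w * w = 1 → w ≠ 1 → w ≠ u → u * w = w * u →
      (∃ c, c ^ 3 = 1 ∧ c ≠ 1 ∧ c * u * c⁻¹ = w ∧ c * w * c⁻¹ = u * w) ∧
        ∀ c, c * u = u * c → c * w = w * c → c = 1 ∨ c = u ∨ c = w ∨ c = u * w :=
  ⟨u6, f6, x6, y6, z6, by
    refine ⟨?_, ?_, ?_, ?_, ?_, ?_, ?_, ?_, ?_, ?_, ?_, ?_, ?_, ?_, ?_, ?_, a6_conj,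
      fun w a b c d => ⟨a6_three w a d b c, a6_cent w a d b c⟩⟩ <;> decide +kernel⟩

end Cfsg.Agent.On3
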